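import Cfsg.Agent.H601.OddDeg.Parity
import Cfsg.Agent.H40.GGAbs
import Cfsg.Agent.H618.ParInd

/-!
# Counting multiplicities (TEAM FOUR, S4947)

`G` finite, `U ≤ B` subgroups.

* `exists_real` : a real irreducible character `χ ≠ 1` of odd degree with `mult H χ ≠ 0` for `|G : H|` even;
* `mult_eq` : if `U` and `B` have the same orbits on `G / B`, then `mult U χ = mult B χ` for every irreducible `χ`
  with `mult B χ ≠ 0`;
* `mult_odd` : for `U` of odd order, `mult U χ` is odd for a real character `χ` of odd degree.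
-/

set_option autoImplicit false
set_option linter.unusedSectionVars false

namespace Cfsg.Agent.H118.Four

open Cfsg Subgroup Cfsg.Agent.Characters.Core Cfsg.Agent.H601.OddDeg
open scoped ComplexConjugate Classical

section

variable {G : Type*} [Group G] [Fintype G]

/-- **A real irreducible character of odd degree.** -/
theorem exists_real (H : Subgroup G) (hidx : 2 ∣ H.index) :
    ∃ χ : G → ℂ, IsIrrCharacter G χ ∧ (∀ x, (χ x).im = 0) ∧ ¬ 2 ∣ charDegree χ ∧ χ ≠ 1 ∧ mult H χ ≠ 0 := by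
  have hfin : Finite (IrrCharacter G) := finite_irr
  have := Fintype.ofFinite (IrrCharacter G)
  have hm : ∀ χ : IrrCharacter G, ∃ n : ℕ, mult H (χ : G → ℂ) = n := fun χ =>
    exists_mult_eq H (isIrr_isCharacter χ.2)
  choose m hm using hm
  have hd : ∀ χ : IrrCharacter G, (χ : G → ℂ) 1 = charDegree (χ : G → ℂ) := fun χ =>
    Cfsg.Agent.Blocks.Basic.irr_one_eq_charDegree χ.2
  have hsum : ∑ χ : IrrCharacter G, m χ * charDegree (χ : G → ℂ) = H.index := by
    have h1 := sum_mult H
    have h2 : ∀ χ : IrrCharacter G, mult H (χ : G → ℂ) * (χ : G → ℂ) 1 =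
        ((m χ * charDegree (χ : G → ℂ) : ℕ) : ℂ) := by
      intro χ
      rw [hm, hd]
      push_cast
      rfl
    rw [Finset.sum_congr rfl fun χ _ => h2 χ] at h1
    exact_mod_cast h1
  by_contra hcon
  push Not at hcon
  let c : IrrCharacter G → IrrCharacter G := fun χ => ⟨fun g => conj ((χ : G → ℂ) g), isIrr_conj χ.2⟩
  have hcc : ∀ χ, c (c χ) = χ := by
    intro χ
    apply Subtype.ext
    funext g
    exact Complex.conj_conj _
  have hmc : ∀ χ : IrrCharacter G, m (c χ) = m χ := by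
    intro χ
    have h1 : mult H ((c χ : IrrCharacter G) : G → ℂ) = mult H (χ : G → ℂ) := mult_conj H (isIrr_isCharacter χ.2)
    rw [hm, hm] at h1
    exact_mod_cast h1
  have hdc : ∀ χ : IrrCharacter G, charDegree ((c χ : IrrCharacter G) : G → ℂ) = charDegree (χ : G → ℂ) := by
    intro χ
    have h1 : ((c χ : IrrCharacter G) : G → ℂ) 1 = conj ((χ : G → ℂ) 1) := rfl
    rw [hd, hd] at h1
    simpa using h1
  let o : IrrCharacter G := ⟨1, isIrr_one⟩
  have hmo : m o = 1 := by
    have h1 := hm o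
    rw [show mult H (o : G → ℂ) = 1 from mult_one H] at h1
    exact_mod_cast h1.symm
  have hdo : charDegree (o : G → ℂ) = 1 := by
    have h1 := hd o
    have h2 : (o : G → ℂ) 1 = 1 := rfl
    rw [h2] at h1
    exact_mod_cast h1.symm
  let f : IrrCharacter G → ZMod 2 := fun χ => ((m χ * charDegree (χ : G → ℂ) : ℕ) : ZMod 2)
  have h0 : ∑ χ ∈ Finset.univ.erase o, f χ = 0 := by
    refine Finset.sum_involution (fun χ _ => c χ) ?_ ?_ ?_ ?_
    · intro χ _
      have h1 : f (c χ) = f χ := by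
        simp only [f, hmc, hdc]
      rw [h1]
      exact CharTwo.add_self_eq_zero _
    · intro χ hχ hf hc
      have h1 : Odd (m χ * charDegree (χ : G → ℂ)) := by
        rw [← Nat.not_even_iff_odd, even_iff_two_dvd]
        intro h
        exact hf ((ZMod.natCast_eq_zero_iff _ _).2 h)
      obtain ⟨h2, h3⟩ := Nat.odd_mul.1 h1
      have h4 := hcon (χ : G → ℂ) χ.2 (fun x => by
        have h5 := congrFun (congrArg (fun y : IrrCharacter G => (y : G → ℂ)) hc) x
        exact Complex.conj_eq_iff_im.1 h5) (by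
        rw [← even_iff_two_dvd, Nat.not_even_iff_odd]
        exact h3) (by
        intro h
        exact (Finset.mem_erase.1 hχ).1 (Subtype.ext h))
      rw [hm] at h4
      have h5 : m χ = 0 := by exact_mod_cast h4
      rw [h5] at h2
      exact absurd h2 (by decide)
    · intro χ hχ
      rw [Finset.mem_erase] at hχ ⊢
      refine ⟨fun h => hχ.1 ?_, Finset.mem_univ _⟩
      rw [← hcc χ, h]
      apply Subtype.ext
      funext g
      change conj (1 : ℂ) = 1
      exact map_one _
    · intro χ _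
      exact hcc χ
  have h1 : ∑ χ, f χ = 0 := by
    have h2 : ∑ χ, f χ = ((H.index : ℕ) : ZMod 2) := by
      rw [← hsum]
      push_cast
      simp only [f]
      push_cast
      rfl
    rw [h2]
    exact (ZMod.natCast_eq_zero_iff _ _).2 hidx
  rw [← Finset.add_sum_erase _ _ (Finset.mem_univ o), h0, add_zero] at h1
  simp only [f] at h1
  rw [hmo, hdo] at h1
  exact absurd h1 (by decide)

/-- The bilinear count for two permutation characters. -/
theorem sum_mult_mult [Fintype (IrrCharacter G)] (A H : Subgroup G) :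
    ∑ χ : IrrCharacter G, mult A (χ : G → ℂ) * mult H (χ : G → ℂ) =
      (Nat.card H : ℂ)⁻¹ * ∑ x : G, (Nat.card A : ℂ)⁻¹ * (Nat.card {a : A // x⁻¹ * (a : G) * x ∈ H} : ℂ) := by
  have h := H40.GG.sum_pair (G := G) (fun u => if u ∈ A then (1 : ℂ) else 0) (fun v => if v ∈ H then (1 : ℂ) else 0)
  have e1 : ∀ χ : IrrCharacter G, ∑ u : G, (if u ∈ A then (1 : ℂ) else 0) * (χ : G → ℂ) u =
      Nat.card A * mult A (χ : G → ℂ) := by
    intro χ
    have hc : (Nat.card A : ℂ) ≠ 0 := Nat.cast_ne_zero.2 Nat.card_pos.ne'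
    rw [mult, mul_inv_cancel_left₀ hc, sB]
    refine Finset.sum_congr rfl fun u _ => ?_
    rw [ite_mul, one_mul, zero_mul, one_mul]
  have e2 : ∀ χ : IrrCharacter G, ∑ v : G, (if v ∈ H then (1 : ℂ) else 0) * conj ((χ : G → ℂ) v) =
      Nat.card H * mult H (χ : G → ℂ) := by
    intro χ
    have hc : (Nat.card H : ℂ) ≠ 0 := Nat.cast_ne_zero.2 Nat.card_pos.ne'
    rw [← mult_conj H (isIrr_isCharacter χ.2), mult, mul_inv_cancel_left₀ hc, sB]
    refine Finset.sum_congr rfl fun u _ => ?_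
    rw [ite_mul, one_mul, zero_mul, one_mul]
  have e3 : ∀ x : G, ∑ u : G, (if u ∈ A then (1 : ℂ) else 0) * (if x⁻¹ * u * x ∈ H then (1 : ℂ) else 0) =
      Nat.card {a : A // x⁻¹ * (a : G) * x ∈ H} := by
    intro x
    have h1 : ∀ u : G, (if u ∈ A then (1 : ℂ) else 0) * (if x⁻¹ * u * x ∈ H then (1 : ℂ) else 0) =
        if u ∈ A ∧ x⁻¹ * u * x ∈ H then 1 else 0 := by
      intro u
      by_cases hu : u ∈ A <;> by_cases hv : x⁻¹ * u * x ∈ H <;> simp [hu, hv]
    rw [Finset.sum_congr rfl fun u _ => h1 u, Finset.sum_boole, Nat.card_congr (Equiv.subtypeSubtypeEquivSubtypeInter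
      (fun u => u ∈ A) (fun u => x⁻¹ * u * x ∈ H)), Nat.card_eq_fintype_card, Fintype.card_subtype]
  rw [Finset.sum_congr rfl fun χ _ => by rw [e1 χ, e2 χ], Finset.sum_congr rfl fun x _ => e3 x] at h
  have hA : (Nat.card A : ℂ) ≠ 0 := Nat.cast_ne_zero.2 Nat.card_pos.ne'
  have hH : (Nat.card H : ℂ) ≠ 0 := Nat.cast_ne_zero.2 Nat.card_pos.ne'
  rw [← Finset.mul_sum, ← h, Finset.mul_sum, Finset.mul_sum]
  refine Finset.sum_congr rfl fun χ _ => ?_
  field_simp

/-- Smaller subgroups have larger multiplicities. -/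
theorem mult_le {U B : Subgroup G} (hle : U ≤ B) {χ : G → ℂ} (hχ : IsCharacter G χ) {a b : ℕ}
    (ha : mult U χ = a) (hb : mult B χ = b) : b ≤ a := by
  obtain ⟨n, ρ, rfl⟩ := hχ
  rw [mult_eq_finrank] at ha hb
  have h1 : Module.finrank ℂ (Representation.invariants (ρ.comp B.subtype)) ≤
      Module.finrank ℂ (Representation.invariants (ρ.comp U.subtype)) := by
    apply Submodule.finrank_mono
    intro v hv x
    exact hv ⟨x, hle x.2⟩
  have h2 : Module.finrank ℂ (Representation.invariants (ρ.comp U.subtype)) = a := by exact_mod_cast ha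
  have h3 : Module.finrank ℂ (Representation.invariants (ρ.comp B.subtype)) = b := by exact_mod_cast hb
  omega

/-- **Multiplicities for two subgroups with the same orbits on the cosets.** -/
theorem mult_eq {U B : Subgroup G} (hle : U ≤ B)
    (horb : ∀ (x b : G), b ∈ B → ∃ u ∈ U, (u * x)⁻¹ * (b * x) ∈ B) {χ : G → ℂ} (hχ : IsIrrCharacter G χ)
    (h0 : mult B χ ≠ 0) : mult U χ = mult B χ := by
  have hfin : Finite (IrrCharacter G) := finite_irr
  have := Fintype.ofFinite (IrrCharacter G)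
  choose f hf using fun χ : IrrCharacter G => exists_mult_eq U (isIrr_isCharacter χ.2)
  choose g hg using fun χ : IrrCharacter G => exists_mult_eq B (isIrr_isCharacter χ.2)
  have hgf : ∀ χ, g χ ≤ f χ := fun χ => mult_le hle (isIrr_isCharacter χ.2) (hf χ) (hg χ)
  -- the orbits
  have key : ∀ x : G, (Nat.card U : ℂ)⁻¹ * (Nat.card {a : U // x⁻¹ * (a : G) * x ∈ B} : ℂ) =
      (Nat.card B : ℂ)⁻¹ * (Nat.card {a : B // x⁻¹ * (a : G) * x ∈ B} : ℂ) := by
    intro x
    have h1 : ∀ A : Subgroup G, Nat.card (MulAction.orbit A (QuotientGroup.mk x : G ⧸ B)) *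
        Nat.card {a : A // x⁻¹ * (a : G) * x ∈ B} = Nat.card A := by
      intro A
      rw [← Nat.card_congr (MulAction.orbitProdStabilizerEquivGroup A (QuotientGroup.mk x : G ⧸ B)), Nat.card_prod]
      congr 1
      refine Nat.card_congr (Equiv.subtypeEquivRight fun a => ?_)
      rw [MulAction.mem_stabilizer_iff]
      change _ ↔ (QuotientGroup.mk ((a : G) * x) : G ⧸ B) = QuotientGroup.mk x
      rw [eq_comm, QuotientGroup.eq, mul_assoc]
    have h2 : MulAction.orbit U (QuotientGroup.mk x : G ⧸ B) = MulAction.orbit B (QuotientGroup.mk x : G ⧸ B) := by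
      ext y
      constructor
      · rintro ⟨u, rfl⟩
        exact ⟨⟨u, hle u.2⟩, rfl⟩
      · rintro ⟨b, rfl⟩
        obtain ⟨u, hu, h3⟩ := horb x b b.2
        refine ⟨⟨u, hu⟩, ?_⟩
        change (QuotientGroup.mk (u * x) : G ⧸ B) = QuotientGroup.mk ((b : G) * x)
        rw [QuotientGroup.eq]
        exact h3
    have h3 := h1 U
    have h4 := h1 B
    rw [h2] at h3
    have hU : (Nat.card U : ℂ) ≠ 0 := Nat.cast_ne_zero.2 Nat.card_pos.ne'
    have hB : (Nat.card B : ℂ) ≠ 0 := Nat.cast_ne_zero.2 Nat.card_pos.ne'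
    have h5 : (Nat.card (MulAction.orbit B (QuotientGroup.mk x : G ⧸ B)) : ℂ) ≠ 0 := by
      intro h
      rw [Nat.cast_eq_zero] at h
      rw [h, zero_mul] at h4
      exact Nat.card_pos.ne h4
    have h6 : (Nat.card U : ℂ) = Nat.card (MulAction.orbit B (QuotientGroup.mk x : G ⧸ B)) *
        Nat.card {a : U // x⁻¹ * (a : G) * x ∈ B} := by
      rw [← h3]
      push_cast
      rfl
    have h7 : (Nat.card B : ℂ) = Nat.card (MulAction.orbit B (QuotientGroup.mk x : G ⧸ B)) *
        Nat.card {a : B // x⁻¹ * (a : G) * x ∈ B} := by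
      rw [← h4]
      push_cast
      rfl
    apply mul_left_cancel₀ h5
    rw [mul_left_comm, mul_left_comm _ (Nat.card B : ℂ)⁻¹, ← h6, ← h7, inv_mul_cancel₀ hU, inv_mul_cancel₀ hB]
  have h1 : ∑ χ : IrrCharacter G, mult U (χ : G → ℂ) * mult B (χ : G → ℂ) =
      ∑ χ : IrrCharacter G, mult B (χ : G → ℂ) * mult B (χ : G → ℂ) := by
    rw [sum_mult_mult, sum_mult_mult, Finset.sum_congr rfl fun x _ => key x]
  have h2 : ∑ χ : IrrCharacter G, g χ * g χ = ∑ χ : IrrCharacter G, f χ * g χ := by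
    have h3 : ((∑ χ : IrrCharacter G, g χ * g χ : ℕ) : ℂ) = ((∑ χ : IrrCharacter G, f χ * g χ : ℕ) : ℂ) := by
      push_cast
      simp only [hf, hg] at h1
      exact h1.symm
    exact_mod_cast h3
  have h3 := (Finset.sum_eq_sum_iff_of_le fun χ _ => Nat.mul_le_mul_right (g χ) (hgf χ)).1 h2 ⟨χ, hχ⟩
    (Finset.mem_univ _)
  have h4 : g ⟨χ, hχ⟩ ≠ 0 := by
    intro h
    apply h0
    have h5 := hg ⟨χ, hχ⟩
    rw [h] at h5
    exact_mod_cast h5
  have h5 := Nat.eq_of_mul_eq_mul_right (Nat.pos_of_ne_zero h4) h3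
  have h6 := hf ⟨χ, hχ⟩
  have h7 := hg ⟨χ, hχ⟩
  change mult U χ = _ at h6
  change mult B χ = _ at h7
  rw [h6, h7, h5]

/-- Real characters of odd degree. -/
theorem mult_odd {U : Subgroup G} (hodd : Odd (Nat.card U)) {χ : G → ℂ} (hχ : IsIrrCharacter G χ)
    (hreal : ∀ x, (χ x).im = 0) (hd : ¬ 2 ∣ charDegree χ) {m : ℕ} (hm : mult U χ = m) : Odd m := by
  have h1 := H618.ParInd.parity_of_real hodd (isCharacter_comp U.subtype (isIrr_isCharacter hχ))
    (fun u => Complex.conj_eq_iff_im.2 (hreal u)) (n := charDegree χ) (m := m) (by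
      change χ ((1 : U) : G) = _
      rw [Subgroup.coe_one]
      exact Cfsg.Agent.Blocks.Basic.irr_one_eq_charDegree hχ) (by
      rw [← hm, mult_eq_classInner]
      rfl)
  rw [Nat.odd_iff]
  omega

end

end Cfsg.Agent.H118.Four
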